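import Mathlib

/-! Dihedral groups acting on elementary abelian `2`-groups. -/

set_option autoImplicit false
set_option linter.unusedSectionVars false

namespace H10.MS
open Subgroup

variable {W : Type*} [CommGroup W] [Finite W]

def dl (β : MulAut W) : W →* W := MonoidHom.mk' (fun w => β w * w⁻¹) fun a b => by
  rw [map_mul, mul_inv]; exact mul_mul_mul_comm _ _ _ _
abbrev Fx (β : MulAut W) : Subgroup W := (dl β).ker
abbrev Br (β : MulAut W) : Subgroup W := (dl β).range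
def Iw (U : Subgroup W) (β : MulAut W) : Prop := ∀ w ∈ U, β w ∈ U

theorem mem_fx {β : MulAut W} {w : W} : w ∈ Fx β ↔ β w = w := mul_inv_eq_one

theorem card_fx (β : MulAut W) : Nat.card (Fx β) * Nat.card (Br β) = Nat.card W := by
  rw [← index_ker, card_mul_index]

theorem fx_conj (β γ : MulAut W) : Nat.card (Fx (γ * β * γ⁻¹)) = Nat.card (Fx β) :=
  (Nat.card_congr (Equiv.subtypeEquiv γ.toEquiv fun w => by
    rw [mem_fx, mem_fx]
    show _ ↔ γ (β (γ.symm (γ w))) = γ w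
    rw [γ.symm_apply_apply, γ.apply_eq_iff_eq])).symm

theorem br_pow (β : MulAut W) (k : ℕ) : Br (β ^ k) ≤ Br β := by
  rintro _ ⟨w, rfl⟩
  induction k with
  | zero => exact ⟨1, by simp [dl]⟩
  | succ k ih =>
    have : dl (β ^ (k + 1)) w = dl β ((β ^ k) w) * dl (β ^ k) w := by
      show (β ^ (k + 1)) w * w⁻¹ = β ((β ^ k) w) * ((β ^ k) w)⁻¹ * ((β ^ k) w * w⁻¹)
      rw [pow_succ', MulAut.mul_apply]; group
    rw [this]; exact mul_mem ⟨_, rfl⟩ ih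

theorem iw_br {β γ : MulAut W} (h : γ * β = β * γ ∨ γ * β = β⁻¹ * γ) : Iw (Br β) γ := by
  rintro _ ⟨w, rfl⟩
  show γ (β w * w⁻¹) ∈ _
  rw [map_mul, map_inv, ← MulAut.mul_apply]
  rcases h with h | h <;> rw [h, MulAut.mul_apply]
  · exact ⟨γ w, rfl⟩
  · refine (inv_mem_iff).1 ⟨β⁻¹ (γ w), ?_⟩
    show β (β⁻¹ (γ w)) * _ = _
    rw [MulAut.apply_inv_self]; group

theorem br_ne {β : MulAut W} (h : β ≠ 1) : Br β ≠ ⊥ := fun k => h <| MulEquiv.ext fun w =>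
  mem_fx.1 (show dl β w = 1 from mem_bot.1 (k ▸ ⟨w, rfl⟩))

theorem br_fx (hW : ∀ w : W, w * w = 1) {β : MulAut W} {m : ℕ} (hm : Odd m) (h : β ^ m = 1) {w : W} (h1 : w ∈ Br β)
    (h2 : β w = w) : w = 1 := by
  obtain ⟨v, rfl⟩ := h1
  have e : β v = dl β v * v := by show _ = β v * v⁻¹ * v; group
  have k : ∀ i : ℕ, (β ^ i) v = dl β v ^ i * v := fun i => by
    induction i with
    | zero => simp
    | succ i ih => rw [pow_succ', MulAut.mul_apply, ih, map_mul, map_pow, h2, pow_succ, mul_assoc, ← e]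
  have k := k m
  obtain ⟨j, rfl⟩ := hm
  rw [h, pow_succ, pow_mul, sq, hW, one_pow, one_mul] at k
  exact (mul_eq_right.1 k.symm)

section
variable (hW : ∀ w : W, w * w = 1) {α ξ : MulAut W} {e : ℕ} (hα : α * α = 1) (hξ : α * ξ = ξ⁻¹ * α)
  (hE : Nat.card W ≤ 2 ^ e * Nat.card (Fx α)) {U : Subgroup W}
include hξ

theorem inv_pow' (k : ℕ) : α * ξ ^ k = (ξ ^ k)⁻¹ * α := by
  induction k with
  | zero => simp
  | succ k ih => rw [pow_succ, ← mul_assoc, ih, mul_assoc, hξ, ← mul_assoc, ← mul_inv_rev, ← pow_succ', pow_succ]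

theorem fix2 {w : W} (h1 : α w = w) (h2 : α (ξ w) = ξ w) : (ξ ^ 2) w = w := by
  rw [← MulAut.mul_apply, hξ, MulAut.mul_apply, h1] at h2
  rw [sq, MulAut.mul_apply, ← h2, MulAut.apply_inv_self]

include hW hα hE in
theorem k1 (u1 : Iw U α) (u2 : Iw U ξ) (h0 : ∀ w ∈ U, (ξ ^ 2) w = w → w = 1) :
    Nat.card U = Nat.card ↥(U ⊓ Fx α) ^ 2 ∧ Nat.card ↥(U ⊓ Fx α) ≤ 2 ^ e := by
  set C := U ⊓ Fx α with hC
  have a1 : Nat.card C * (Fx α).relIndex U = Nat.card U := by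
    rw [← inf_relIndex_right, inf_comm, ← hC, ← Nat.card_congr (subgroupOfEquivOfLe (inf_le_left : C ≤ U)).toEquiv]
    exact card_mul_index _
  have a2 : (Fx α).relIndex U ≤ 2 ^ e := by
    refine (relIndex_le_of_le_right (le_top (a := U)) (by rw [relIndex_top_right]; exact index_ne_zero_of_finite)).trans ?_
    rw [relIndex_top_right]
    rw [← card_mul_index (Fx α), mul_comm] at hE
    exact Nat.le_of_mul_le_mul_right hE Nat.card_pos
  have a3 : (Fx α).relIndex U ≤ Nat.card C := by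
    have : (Fx α).relIndex U = Nat.card (U.map (dl α)) := relIndex_ker _ _
    rw [this]
    refine card_le_of_le ?_
    rintro _ ⟨w, hw, rfl⟩
    refine ⟨U.mul_mem (u1 w hw) (U.inv_mem hw), mem_fx.2 ?_⟩
    show α (α w * w⁻¹) = α w * w⁻¹
    rw [map_mul, map_inv, ← MulAut.mul_apply, hα, MulAut.one_apply, ← eq_inv_of_mul_eq_one_left (hW _),
      ← eq_inv_of_mul_eq_one_left (hW _), mul_comm]
  have a4 : Nat.card C * Nat.card C ≤ Nat.card U := by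
    rw [← Nat.card_prod]
    refine Nat.card_le_card_of_injective (fun x : C × C => (⟨x.1 * ξ x.2, mul_mem x.1.2.1 (u2 _ x.2.2.1)⟩ : U)) ?_
    rintro ⟨x, y⟩ ⟨x', y'⟩ h
    have h : (x : W) * ξ y = x' * ξ y' := congrArg Subtype.val h
    have k : ξ ((y * y'⁻¹ : C) : W) = ((x⁻¹ * x' : C) : W) := by
      rw [coe_mul, coe_mul, coe_inv, coe_inv, map_mul, map_inv, mul_inv_eq_iff_eq_mul, mul_assoc, ← h]; group
    have k2 := h0 _ (y * y'⁻¹).2.1 (fix2 hξ (mem_fx.1 (y * y'⁻¹).2.2) (by rw [k]; exact mem_fx.1 (x⁻¹ * x').2.2))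
    have k3 : y = y' := mul_inv_eq_one.1 (Subtype.ext k2)
    subst k3
    rw [Subtype.ext (mul_right_cancel h)]
  have p : 0 < Nat.card C := Nat.card_pos
  refine ⟨by nlinarith, Nat.le_of_mul_le_mul_left (c := Nat.card C) (by nlinarith) p⟩

theorem k2 {m : ℕ} (hm : Odd m) (u2 : Iw U ξ) (hs : ∀ w ∈ U, w ≠ 1 → ∀ i : ℕ, (ξ ^ i) w = w → m ∣ i) :
    m * (Nat.card ↥(U ⊓ Fx α) - 1) ≤ Nat.card U - 1 := by
  classical
  haveI := Fintype.ofFinite W
  have c : ∀ X : Subgroup W, Nat.card X - 1 = ((Finset.univ.filter (· ∈ X)).erase 1).card := fun X => by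
    rw [Finset.card_erase_of_mem (by simp), Nat.card_eq_fintype_card, Fintype.card_subtype]
  have u3 : ∀ i : ℕ, ∀ w ∈ U, (ξ ^ i) w ∈ U := fun i w hw => by
    induction i with
    | zero => exact hw
    | succ i ih => rw [pow_succ', MulAut.mul_apply]; exact u2 _ ih
  have k : ∀ i j : ℕ, i ≤ j → j < m → ∀ w w' : W, α w = w → α w' = w' → w' ∈ U → w' ≠ 1 → (ξ ^ i) w = (ξ ^ j) w' →
      (i, w) = (j, w') := fun i j l hj w w' a b hw n h => by
    obtain ⟨k, rfl⟩ := Nat.exists_eq_add_of_le l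
    rw [pow_add, MulAut.mul_apply, (ξ ^ i).apply_eq_iff_eq] at h
    have t := fix2 (inv_pow' hξ k) b (h ▸ a)
    rw [← pow_mul] at t
    have t := (Nat.Coprime.dvd_mul_right (Nat.coprime_two_right.2 hm)).1 (hs _ hw n _ t)
    have t : k = 0 := Nat.eq_zero_of_dvd_of_lt t (by omega)
    subst t
    rw [h]; rfl
  rw [c, c]
  conv_lhs => rw [← Finset.card_range m, ← Finset.card_product]
  refine Finset.card_le_card_of_injOn (fun x => (ξ ^ x.1) x.2) ?_ ?_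
  · rintro ⟨i, w⟩ h
    simp only [Finset.coe_product, Set.mem_prod, Finset.mem_coe, Finset.mem_erase, Finset.mem_filter, Finset.mem_univ,
      true_and] at h ⊢
    exact ⟨fun t => h.2.1 ((ξ ^ i).map_eq_one_iff.1 t), u3 _ _ h.2.2.1⟩
  · rintro ⟨i, w⟩ h ⟨j, w'⟩ h' t
    simp only [Finset.coe_product, Set.mem_prod, Finset.mem_coe, Finset.mem_erase, Finset.mem_filter, Finset.mem_univ,
      true_and, Finset.mem_range] at h h'
    rcases le_total i j with l | l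
    · exact k i j l h'.1 _ _ (mem_fx.1 h.2.2.2) (mem_fx.1 h'.2.2.2) h'.2.2.1 h'.2.1 t
    · exact (k j i l h.1 _ _ (mem_fx.1 h'.2.2.2) (mem_fx.1 h.2.2.2) h.2.2.1 h.2.1 t.symm).symm

omit hξ in
theorem sr {m : ℕ} (h1 : ξ ^ m = 1) (h : ∀ r : ℕ, r.Prime → r ∣ m → ∀ w ∈ U, (ξ ^ (m / r)) w = w → w = 1) (m0 : m ≠ 0) :
    ∀ w ∈ U, w ≠ 1 → ∀ i : ℕ, (ξ ^ i) w = w → m ∣ i := fun w hw n i t => by
  have p : ∀ k : ℕ, (ξ ^ k) w = w ↔ MulAction.period ξ w ∣ k := fun k => MulAction.pow_smul_eq_iff_period_dvd (m := ξ) (a := w)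
  obtain ⟨s, hs⟩ := (p m).1 (by rw [h1]; rfl)
  by_cases s1 : s = 1
  · rw [hs, s1, mul_one]; exact (p i).1 t
  · obtain ⟨r, r1, c, rfl⟩ := Nat.exists_prime_and_dvd s1
    refine absurd (h r r1 ⟨_ * c, by rw [hs]; ring⟩ w hw ((p _).2 ⟨c, ?_⟩)) n
    exact Nat.div_eq_of_eq_mul_right r1.pos (by rw [hs]; ring)

include hW hα hE in
theorem k3 {m : ℕ} (hm : Odd m) (h1 : ξ ^ m = 1) (m1 : m ≠ 1) (u0 : U ≠ ⊥) (u1 : Iw U α) (u2 : Iw U ξ)
    (h : ∀ r : ℕ, r.Prime → r ∣ m → ∀ w ∈ U, (ξ ^ (m / r)) w = w → w = 1) :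
    ∃ j, 1 ≤ j ∧ j ≤ e ∧ Nat.card U = (2 ^ j) ^ 2 ∧ m ≤ 2 ^ j + 1 := by
  have s := sr h1 h hm.pos.ne'
  obtain ⟨a, b⟩ := k1 hW hα hξ hE u1 u2 fun w hw t => by_contra fun n => by
    have := Nat.le_of_dvd two_pos (s w hw n 2 t)
    obtain ⟨k, rfl⟩ := hm
    omega
  have c := k2 hξ hm u2 s
  haveI : Fact (Nat.Prime 2) := ⟨Nat.prime_two⟩
  obtain ⟨j, hj⟩ := IsPGroup.iff_card.1 (show IsPGroup 2 ↥(U ⊓ Fx α) from fun w => ⟨1, Subtype.ext (by
    rw [pow_one, sq]; exact hW _)⟩)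
  rw [hj] at a b c
  have j0 : j ≠ 0 := by rintro rfl; exact u0 (card_eq_one.1 a)
  have d : 1 < 2 ^ j := Nat.one_lt_two_pow j0
  refine ⟨j, by omega, (Nat.pow_le_pow_iff_right one_lt_two).1 b, a, ?_⟩
  rw [a] at c
  obtain ⟨t, ht⟩ : ∃ t, 2 ^ j = t + 2 := ⟨2 ^ j - 2, by omega⟩
  rw [ht] at c ⊢
  rw [show t + 2 - 1 = t + 1 from rfl, show (t + 2) ^ 2 - 1 = (t + 3) * (t + 1) from Nat.sub_eq_of_eq_add (by ring)] at c
  exact Nat.le_of_mul_le_mul_right c t.succ_pos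

include hW hα hE in
theorem pp {r k : ℕ} (hr : r.Prime) (ro : Odd r) (ho : orderOf ξ = r ^ (k + 1)) :
    ∃ j, 1 ≤ j ∧ j ≤ e ∧ Nat.card (Br (ξ ^ r ^ k)) = (2 ^ j) ^ 2 ∧ r ^ (k + 1) ≤ 2 ^ j + 1 ∧ (2 ^ j) ^ 2 % r = 1 := by
  have h1 : ξ ^ r ^ (k + 1) = 1 := ho ▸ pow_orderOf_eq_one ξ
  have h2 : (ξ ^ r ^ k) ^ r = 1 := by rw [← pow_mul, ← pow_succ, h1]
  have n : ξ ^ r ^ k ≠ 1 := pow_ne_one_of_lt_orderOf (pow_ne_zero _ hr.ne_zero) (ho ▸ Nat.pow_lt_pow_right hr.one_lt k.lt_succ_self)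
  obtain ⟨j, a, b, c, d⟩ := k3 hW hα hξ hE (ro.pow (n := k + 1)) h1 (Nat.one_lt_pow k.succ_ne_zero hr.one_lt).ne' (br_ne n)
    (iw_br (.inr (inv_pow' hξ _))) (iw_br (.inl (Commute.self_pow ξ _))) fun s hs sd w hw t => by
      obtain rfl := (Nat.prime_dvd_prime_iff_eq hs hr).1 (hs.dvd_of_dvd_pow sd)
      rw [pow_succ, Nat.mul_div_cancel _ hs.pos] at t
      exact br_fx hW ro h2 hw t
  refine ⟨j, a, b, c, d, ?_⟩
  classical
  haveI := Fintype.ofFinite W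
  haveI := Fact.mk hr
  have f := Equiv.Perm.card_fixedPoints_modEq (f := (fun w => (ξ ^ r ^ k) w : Function.End W)) (p := r) (n := 1) (by
    have : ∀ i : ℕ, (show Function.End W from fun w => (ξ ^ r ^ k) w) ^ i = fun w => ((ξ ^ r ^ k) ^ i) w := fun i => by
      induction i with
      | zero => rfl
      | succ i ih => rw [pow_succ, ih, pow_succ]; rfl
    rw [pow_one]; refine (this r).trans ?_; rw [h2]; rfl)
  have g : Fintype.card (Function.fixedPoints (fun w => (ξ ^ r ^ k) w : Function.End W)) = Nat.card (Fx (ξ ^ r ^ k)) := by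
    rw [← Nat.card_eq_fintype_card]
    exact Nat.card_congr (Equiv.subtypeEquivRight fun w => mem_fx.symm)
  rw [g, ← Nat.card_eq_fintype_card, ← card_fx (ξ ^ r ^ k), c] at f
  haveI : Fact (Nat.Prime 2) := ⟨Nat.prime_two⟩
  obtain ⟨i, hi⟩ := IsPGroup.iff_card.1 (show IsPGroup 2 (Fx (ξ ^ r ^ k)) from fun w => ⟨1, Subtype.ext (by
    rw [pow_one, sq]; exact hW _)⟩)
  have f := Nat.ModEq.cancel_left_of_coprime (c := Nat.card (Fx (ξ ^ r ^ k))) (a := (2 ^ j) ^ 2) (b := 1) (m := r)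
    (by rw [hi]; exact (Nat.coprime_two_right.2 ro).pow_right _) (by rw [mul_one]; exact f)
  exact Eq.trans f (Nat.mod_eq_of_lt hr.one_lt)

include hW hα hE in
theorem cc {r k s : ℕ} (hr : r.Prime) (ro : Odd r) (hs : s.Prime) (so : Odd s) (rs : r ≠ s)
    (ho : orderOf ξ = r ^ (k + 1) * s) (h1 : 2 ^ (e - 1) + 1 < r ^ (k + 1)) : r ^ (k + 1) * s ≤ 2 ^ e + 1 := by
  have o1 : ξ ^ (r ^ (k + 1) * s) = 1 := ho ▸ pow_orderOf_eq_one ξ
  have mo : Odd (r ^ (k + 1) * s) := ro.pow.mul so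
  obtain ⟨j, a, b, c, d, -⟩ := pp hW hα (inv_pow' hξ s) hE hr ro (k := k) (by
    rw [orderOf_pow' _ hs.ne_zero, ho, Nat.gcd_eq_right (dvd_mul_left _ _), Nat.mul_div_cancel _ hs.pos])
  have je : j = e := by
    by_contra n
    have := Nat.pow_le_pow_right two_pos (show j ≤ e - 1 by omega)
    omega
  subst je
  obtain ⟨a1, a2⟩ := k1 hW hα hξ hE (U := Br ξ) (iw_br (.inr hξ)) (iw_br (.inl rfl)) fun w hw t => br_fx hW mo o1 hw (by
    obtain ⟨i, hi⟩ := mo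
    have : ∀ l : ℕ, (ξ ^ (2 * l)) w = w := fun l => by
      induction l with
      | zero => rfl
      | succ l ih => rw [mul_add, mul_one, pow_add, MulAut.mul_apply, t, ih]
    have := this (i + 1)
    rwa [show 2 * (i + 1) = 2 * i + 1 + 1 by ring, ← hi, pow_succ, o1, one_mul] at this)
  rw [← pow_mul] at c
  have e1 : Br (ξ ^ (s * r ^ k)) = Br ξ := eq_of_le_of_card_ge (br_pow _ _) (by
    rw [a1, c]; exact Nat.pow_le_pow_left a2 2)
  have n : ξ ^ r ^ (k + 1) ≠ 1 := pow_ne_one_of_lt_orderOf (pow_ne_zero _ hr.ne_zero)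
    (ho ▸ (Nat.lt_mul_iff_one_lt_right (pow_pos hr.pos _)).2 hs.one_lt)
  obtain ⟨i, -, b', -, d'⟩ := k3 hW hα hξ hE mo o1 (fun t => hs.one_lt.ne' (Nat.eq_one_of_mul_eq_one_left t)) (br_ne n)
    (iw_br (.inr (inv_pow' hξ _))) (iw_br (.inl (Commute.self_pow ξ _))) fun q hq qd w hw t => by
      rcases (Nat.Prime.dvd_mul hq).1 qd with h | h
      · obtain rfl := (Nat.prime_dvd_prime_iff_eq hq hr).1 (hq.dvd_of_dvd_pow h)
        rw [show q ^ (k + 1) * s / q = s * q ^ k from Nat.div_eq_of_eq_mul_right hq.pos (by ring)] at t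
        exact br_fx hW ro (by rw [← pow_mul, ← o1]; congr 1; ring) (e1 ▸ br_pow _ _ hw) t
      · obtain rfl := (Nat.prime_dvd_prime_iff_eq hq hs).1 h
        rw [Nat.mul_div_cancel _ hq.pos] at t
        exact br_fx hW so (by rw [← pow_mul, o1]) hw t
  exact d'.trans (Nat.add_le_add_right (Nat.pow_le_pow_right two_pos b') 1)

end
end H10.MS
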